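import Cfsg.Agent.H887.Ux.Ya2
import Cfsg.Agent.H447.Bs.OMinus
import Cfsg.Agent.H59.Bs.OType

/-!
# S5716, unbounded rank, UT2: `Ya3` (helper557)

* `exists_emb` : a nondegenerate quadratic space `L` is isometric to a subspace of `V`, if `2 dim L < dim V`;
* `ya3 : Ya0 → Ya3`.
-/

set_option autoImplicit false
set_option linter.unusedSectionVars false

namespace Cfsg.Agent.H557.Ux

open Module Cfsg.Agent.H847.Bs Cfsg.Agent.H881.Bs QuadraticMap Cfsg.Agent.LieClassical.OrthCore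
open Cfsg.Agent.H50.Ux Cfsg.Agent.H59.Bs Cfsg.Agent.H39.Bs Cfsg.Agent.H182.Sign
open Cfsg.Agent.H887.Ux (gen_of_prime orderOf_mu)

/-- **embedding of quadratic spaces**: `q ⟂ -q` is hyperbolic -/
theorem exists_emb {F V L : Type} [Field F] [Finite F] [AddCommGroup V] [Module F V] [FiniteDimensional F V] [AddCommGroup L]
    [Module F L] [FiniteDimensional F L] {Q : QuadraticForm F V} (hQ : Nondeg Q) {q : QuadraticForm F L} (hq : Nondeg q)
    (hd : 2 * finrank F L + 1 ≤ finrank F V) : ∃ i : L →ₗ[F] V, ∀ x, Q (i x) = q x := by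
  obtain ⟨V', _, _, _, Q', hQ', -, e, he⟩ := Cfsg.Agent.H765.Bs.split (finrank F L) V Q hQ hd
  let Q₂ : QuadraticForm F (L × L) := q.comp (LinearMap.fst F L L) - q.comp (LinearMap.snd F L L)
  have hQ₂ : ∀ x y, Q₂ (x, y) = q x - q y := fun _ _ => rfl
  have hpol : ∀ x y x' y', polar Q₂ (x, y) (x', y') = polar q x x' - polar q y y' := by
    intro x y x' y'
    rw [polar, Prod.mk_add_mk, hQ₂, hQ₂, hQ₂, polar, polar]
    ring
  have hnd : Nondeg Q₂ := by
    rintro ⟨x, y⟩ h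
    have h1 : x = 0 := hq x fun x' => by
      have h3 := h (x', 0)
      rw [hpol, polar_zero_right, sub_zero] at h3
      exact h3
    have h2 : y = 0 := hq y fun y' => by
      have h3 := h (0, y')
      rw [hpol, polar_zero_right, zero_sub, neg_eq_zero] at h3
      exact h3
    rw [h1, h2]
    rfl
  have hplus : PlusT Q₂ := by
    rw [plusT_iff]
    refine ⟨LinearMap.range (LinearMap.prod (LinearMap.id : L →ₗ[F] L) LinearMap.id), ?_, ?_⟩
    · rintro _ ⟨x, rfl⟩
      show Q₂ (x, x) = 0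
      rw [hQ₂, sub_self]
    · rw [LinearMap.finrank_range_of_inj (fun x y h => congrArg Prod.fst h), finrank_prod, two_mul]
  obtain ⟨e₂, he₂⟩ := exists_iso_of_plus (finrank F L) hnd hplus (by rw [finrank_prod, two_mul])
  refine ⟨(e : ((Fin (finrank F L) → F × F) × V') →ₗ[F] V) ∘ₗ LinearMap.inl F _ _ ∘ₗ
    (e₂.symm : (L × L) →ₗ[F] (Fin (finrank F L) → F × F)) ∘ₗ LinearMap.inl F L L, fun x => ?_⟩
  show Q (e (e₂.symm (x, 0), 0)) = q x
  rw [he, map_zero, add_zero, ← he₂, e₂.apply_symm_apply, hQ₂, map_zero, sub_zero]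

/-- **Ya3** -/
theorem ya3 (hY : Ya0) : Ya3 := by
  intro F V _ _ _ _ _ Q p f e hQ he hp hpf h20 hn hbig
  obtain ⟨j, hj⟩ := he
  have hpp : Fact p.Prime := ⟨hp⟩
  have hf : 1 ≤ f := by
    rcases Nat.eq_zero_or_pos f with h0 | h0
    · subst h0
      rw [pow_zero] at hpf
      have := Finite.one_lt_card (α := F)
      omega
    · exact h0
  -- the characteristic
  have := Fintype.ofFinite F
  obtain ⟨a, hpr, ha⟩ := FiniteField.card F (ringChar F)
  have hchar : ringChar F = p := by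
    have h1 : p ∣ ringChar F ^ (a : ℕ) := by
      rw [← ha, ← Nat.card_eq_fintype_card, hpf]
      exact dvd_pow_self p (by omega)
    exact ((Nat.prime_dvd_prime_iff_eq hp hpr).1 (hp.dvd_of_dvd_pow h1)).symm
  have hchar' : CharP F p := by rw [← hchar]; exact ringChar.charP F
  -- the fields
  have hnz : NeZero j := ⟨by omega⟩
  let K := FiniteField.Extension F p j
  have hcK : CharP K p := charP_of_injective_algebraMap (algebraMap F K).injective p
  let L := FiniteField.Extension K p 2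
  let _ : Algebra F L := ((algebraMap K L).comp (algebraMap F K)).toAlgebra
  have htower : IsScalarTower F K L := IsScalarTower.of_algebraMap_eq' rfl
  have hKf : finrank F K = j := FiniteField.finrank_extension F p j
  have h2 : finrank K L = 2 := FiniteField.finrank_extension K p 2
  have hKc : Nat.card K = Nat.card F ^ j := FiniteField.natCard_extension F p j
  have hfL : FiniteDimensional F L := Module.Finite.of_finite
  have hfK : FiniteDimensional F K := Module.Finite.of_finite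
  have hLf : finrank F L = e := by rw [← Module.finrank_mul_finrank F K L, hKf, h2]; omega
  have hsg : Sg (traceForm F (qN h2)) (finrank F K * 1) (-1) := (sg_qN h2).res
  obtain ⟨i, hi⟩ := exists_emb (L := L) (Q := Q) hQ hsg.nondeg (by rw [hLf]; omega)
  have hip : ∀ x y, polar Q (i x) (i y) = polar (traceForm F (qN h2)) x y := fun x y => by
    rw [polar, polar, ← map_add, hi, hi, hi]
  have hinj : Function.Injective i := by
    rw [injective_iff_map_eq_zero]
    intro x hx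
    refine hsg.nondeg x fun y => ?_
    rw [← hip, hx, polar_zero_left]
  have hcardL : Nat.card L = (p ^ f) ^ e := by
    rw [Module.natCard_eq_pow_finrank (K := F), hLf, hpf]
  have hKc' : Nat.card K = p ^ (f * j) := by rw [hKc, hpf, ← pow_mul]
  set c := p ^ (f * j) with hc
  have hc1 : 1 ≤ c := Nat.one_le_pow _ _ hp.pos
  have hcc : (p ^ f) ^ e = c ^ 2 := by rw [hj, hc, ← pow_mul, ← pow_mul]; congr 1; ring
  have hfac : c ^ 2 - 1 = (c + 1) * (c - 1) := by rw [← Nat.sq_sub_sq, one_pow]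
  set S : Set Lˣ := {t | t ^ (c + 1) = 1 ∧ ∃ k, 2 * e + 1 < k ∧ k ∣ (p ^ f) ^ e - 1 ∧
    (∀ s : ℕ, s.Prime → s ∣ k → orderOf ((p : ℕ) : ZMod s) = e * f) ∧ k ∣ orderOf t} with hS
  have h0 : 3 * (c + 1) ≤ 4 * Nat.card S := by
    refine hY L p f e (c + 1) hp hf (by omega) hcardL hbig ?_ ?_
    · rw [hcc, hfac]
      exact Dvd.intro _ rfl
    · intro s hs hord hdvd
      rw [hcc, hfac, Nat.mul_div_cancel_left _ (Nat.succ_pos _), hc] at hdvd
      have h3 : ((p : ℕ) : ZMod s) ^ (f * j) = 1 := by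
        rw [← ZMod.natCast_eq_zero_iff, Nat.cast_sub hc1, Nat.cast_pow, Nat.cast_one, sub_eq_zero] at hdvd
        exact hdvd
      have h4 := orderOf_dvd_of_pow_eq_one h3
      rw [hord] at h4
      have h5 : 0 < f * j := Nat.mul_pos hf (by omega)
      have h6 := Nat.le_of_dvd h5 h4
      have h7 : e * f = 2 * (f * j) := by rw [hj]; ring
      omega
  have hgen : ∀ t ∈ S, Gen F (t : L) := by
    rintro t ⟨-, k, hk1, -, hk3, hk4⟩
    obtain ⟨s, hs, hsk⟩ := Nat.exists_prime_and_dvd (n := k) (by omega)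
    exact gen_of_prime hpf hf hLf hs (hk3 s hs hsk) (hsk.trans hk4)
  -- the subspace
  let E₀ : Submodule F V := LinearMap.range i
  let ε : E₀ ≃ₗ[F] L := (LinearEquiv.ofInjective i hinj).symm
  have hε : ∀ x, ((ε.symm x : E₀) : V) = i x := fun _ => rfl
  have hmem : ∀ t : Lˣ, mu ε t ∈ ((frmQ Q).on E₀).Iso ↔ t ^ (c + 1) = 1 := by
    intro t
    have hqv : ∀ v : E₀, Q ((mu ε t v : E₀) : V) = traceForm F (qN h2) (t * ε v) := fun v => by
      rw [mu_apply, hε, hi]
    constructor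
    · intro h
      have h3 : mulE F t ∈ O (traceForm F (qN h2)) := by
        intro x
        have h4 := h.2 (ε.symm x)
        change Q ((mu ε t (ε.symm x) : E₀) : V) = Q ((ε.symm x : E₀) : V) at h4
        rw [hqv, ε.apply_symm_apply, hε, hi] at h4
        exact h4
      have h5 := Cfsg.Agent.H447.Bs.pow_eq_of_mulE_mem h2 h3
      rwa [hKc'] at h5
    · intro h
      have h3 : mulE F t ∈ O (traceForm F (qN h2)) := Cfsg.Agent.H447.Bs.mulE_mem_O h2 (by rwa [hKc'])
      have h4 : mu ε t ∈ (frmQ (Q.comp E₀.subtype)).Iso := by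
        rw [Cfsg.Agent.H447.Bs.mem_Iso_frmQ]
        intro v
        show Q ((mu ε t v : E₀) : V) = Q (v : V)
        rw [hqv]
        have h5 := h3 (ε v)
        rw [mulE_apply] at h5
        rw [h5, ← hi, ← hε, ε.symm_apply_apply]
      exact h4
  have hE : (frmQ Q).NdOn E₀ := by
    rintro _ ⟨x, rfl⟩ h
    have h3 : x = 0 := hsg.nondeg x fun y => by
      rw [← hip]
      exact h _ ⟨y, rfl⟩
    rw [h3, map_zero]
  have hdim : finrank F E₀ = e := by rw [LinearMap.finrank_range_of_inj hinj, hLf]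
  refine ⟨E₀, hE, hdim, ?_⟩
  have hE0fin : Finite E₀ := Module.finite_of_finite F
  have h1 := irr_count ε ((frmQ Q).on E₀).Iso S hgen
  have hct : Nat.card {d : Lˣ // mu ε d ∈ ((frmQ Q).on E₀).Iso} = c + 1 := by
    have h3 : (c + 1) ∣ Nat.card Lˣ := by
      rw [Nat.card_units, hcardL, hcc, hfac]
      exact Dvd.intro _ rfl
    rw [← card_pow_eq_one h3]
    exact Nat.card_congr (Equiv.subtypeEquivRight fun t => hmem t)
  rw [hct, hdim] at h1
  have hGfin := finite_equiv' F E₀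
  have h3 : Nat.card {z : E₀ ≃ₗ[F] E₀ // ∃ g ∈ ((frmQ Q).on E₀).Iso, ∃ t ∈ S, z = g * mu ε t * g⁻¹} ≤
      Nat.card {m : E₀ ≃ₗ[F] E₀ // m ∈ ((frmQ Q).on E₀).Iso ∧ m ∈ PI F E₀ e} := by
    refine Nat.card_le_card_of_injective (fun z => (⟨z.1, ?_⟩ :
      {m : E₀ ≃ₗ[F] E₀ // m ∈ ((frmQ Q).on E₀).Iso ∧ m ∈ PI F E₀ e})) fun a b h => Subtype.ext (Subtype.mk.inj h)
    obtain ⟨g, hg, t, ht, hz⟩ := z.2
    have ht' : mu ε t ∈ ((frmQ Q).on E₀).Iso := (hmem t).2 ht.1
    rw [hz]
    refine ⟨((frmQ Q).on E₀).Iso.mul_mem (((frmQ Q).on E₀).Iso.mul_mem hg ht') (((frmQ Q).on E₀).Iso.inv_mem hg),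
      Cfsg.Agent.H881.Bs.irr_conj (irr_mu ε (hgen t ht)), ?_⟩
    obtain ⟨-, k, hk1, hk2, hk3, hk4⟩ := ht
    refine ⟨k, ⟨hk1, by rw [hpf]; exact hk2, fun s hs hsk f' hf' => ?_⟩, ?_⟩
    · rw [hchar] at hf' ⊢
      have : f' = f := Nat.pow_right_injective hp.two_le (hf'.symm.trans hpf)
      rw [this]
      exact hk3 s hs hsk
    · have h4 : orderOf (g * mu ε t * g⁻¹) = orderOf (mu ε t) := by
        have := (MulAut.conj g : (E₀ ≃ₗ[F] E₀) ≃* (E₀ ≃ₗ[F] E₀)).orderOf_eq (mu ε t)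
        rwa [MulAut.conj_apply] at this
      rw [h4, orderOf_mu]
      exact hk4
  set N := Nat.card {m : E₀ ≃ₗ[F] E₀ // m ∈ ((frmQ Q).on E₀).Iso ∧ m ∈ PI F E₀ e} with hN
  have h4 : Nat.card ((frmQ Q).on E₀).Iso * Nat.card S ≤ e * (c + 1) * N :=
    h1.trans (Nat.mul_le_mul_left _ h3)
  have h5 : Nat.card ((frmQ Q).on E₀).Iso * (c + 1) ≤ (4 * e * N) * (c + 1) := by
    calc Nat.card ((frmQ Q).on E₀).Iso * (c + 1) ≤ Nat.card ((frmQ Q).on E₀).Iso * (3 * (c + 1)) :=
          Nat.mul_le_mul_left _ (by omega)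
      _ ≤ Nat.card ((frmQ Q).on E₀).Iso * (4 * Nat.card S) := Nat.mul_le_mul_left _ h0
      _ = 4 * (Nat.card ((frmQ Q).on E₀).Iso * Nat.card S) := by ring
      _ ≤ 4 * (e * (c + 1) * N) := Nat.mul_le_mul_left _ h4
      _ = (4 * e * N) * (c + 1) := by ring
  exact Nat.le_of_mul_le_mul_right h5 (Nat.succ_pos _)

end Cfsg.Agent.H557.Ux
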