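import Cfsg.Agent.H557.Ux.Irr
import Cfsg.Agent.H50.Ux.Stmts

/-!
# S5716, unbounded rank, UT2: `Yb` (helper557)

The pairs `(P, m)`, `P ≠ 0` the pull back of the form of `V` under an injective map `X → V`, `m` an irreducible isometry of `P`:
`dim X * |pairs| ≤ |GL(X)|`, because all these `P` are one orbit of `GL(X)` (`exists_isom`).

* `card_nz_le` : the pairs with `P ≠ 0`;
* `yb : H50.Ux.Yb`.
-/

set_option autoImplicit false

namespace Cfsg.Agent.H557.Ux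

open Module Cfsg.Agent.H847.Bs Cfsg.Agent.H881.Bs
open Cfsg.Agent.H50.Ux

section

variable {F X L : Type*} [Field F] [AddCommGroup X] [Module F X] [Field L] [Algebra F L] {Φ Φ' : Frm F X} {ε : F}

/-- **two forms with irreducible isometries are isometric** -/
theorem exists_isom [Finite F] [Finite L] [Module.Finite F X] (h : Gf Φ ε) (h' : Gf Φ' ε) (hs : Φ'.s = Φ.s)
    (hqq : (∀ x, Φ.q x = 0) ∧ (∀ x, Φ'.q x = 0) ∨
      ((∀ x y, Φ.q (x + y) = Φ.q x + Φ.q y + Φ.B x y) ∧ ∀ (a : F) (x), Φ.q (a • x) = a ^ 2 * Φ.q x) ∧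
      ((∀ x y, Φ'.q (x + y) = Φ'.q x + Φ'.q y + Φ'.B x y) ∧ ∀ (a : F) (x), Φ'.q (a • x) = a ^ 2 * Φ'.q x))
    (h2 : 2 ≤ finrank F X) {e e' : X ≃ₗ[F] L}
    {t t' : Lˣ} {τ τ' : L →+* L} (D : Dt Φ e t τ) (D' : Dt Φ' e' t' τ') :
    ∃ g : X ≃ₗ[F] X, (∀ x y, Φ.B (g x) (g y) = Φ'.B x y) ∧ ∀ x, Φ.q (g x) = Φ'.q x := by
  have hfd : FiniteDimensional F L := Module.Finite.of_finite
  have hV : Nontrivial X := e.toEquiv.nontrivial
  obtain rfl : τ = τ' := tau_eq D.inv (tau_ne h2 D) D'.inv (tau_ne h2 D')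
  -- the functionals
  have hf : ∀ (Φ : Frm F X) (e : X ≃ₗ[F] L), ∃ f : L →ₗ[F] F, ∀ x, f x = Φ.B (e.symm x) (e.symm 1) := fun Φ e =>
    ⟨{ toFun := fun x => Φ.B (e.symm x) (e.symm 1)
       map_add' := fun x y => by rw [map_add, Φ.add_left]
       map_smul' := fun a x => by rw [map_smul, Φ.smul_left]; rfl }, fun _ => rfl⟩
  obtain ⟨f, hf1⟩ := hf Φ e
  obtain ⟨f', hf1'⟩ := hf Φ' e'
  have hB : ∀ x y, Φ.B (e.symm x) (e.symm y) = f (τ y * x) := by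
    intro x y
    rw [hf1, D.adj, D.inv, mul_one]
  have hB' : ∀ x y, Φ'.B (e'.symm x) (e'.symm y) = f' (τ y * x) := by
    intro x y
    rw [hf1', D'.adj, D'.inv, mul_one]
  have hs1 : ∀ z, f (τ z) = ε * Φ.s (f z) := by
    intro z
    rw [hf1, hf1, ← h.symm, ← mul_one (τ z), D.adj, D.inv, mul_one]
  have hs' : ∀ z, f' (τ z) = ε * Φ.s (f' z) := by
    intro z
    rw [hf1', hf1', ← hs, ← h'.symm, ← mul_one (τ z), D'.adj, D'.inv, mul_one]
  have hf0 : f ≠ 0 := by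
    rintro rfl
    obtain ⟨x, y, hxy⟩ := h.exists_B_ne
    apply hxy
    rw [← e.symm_apply_apply x, ← e.symm_apply_apply y, hB]
    rfl
  obtain ⟨l, hl⟩ := exists_functional f f' hf0
  have hl0 : l ≠ 0 := by
    rintro rfl
    obtain ⟨x, y, hxy⟩ := h'.exists_B_ne
    apply hxy
    rw [← e'.symm_apply_apply x, ← e'.symm_apply_apply y, hB', hl, zero_mul, map_zero]
  have hτl : τ l = l := by
    have h3 : ∀ z, f ((τ l - l) * z) = 0 := by
      intro z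
      have h4 := hs' (τ z)
      rw [hl, hl, ← hs1, τ.map_mul, D.inv] at h4
      rw [sub_mul, map_sub, h4, sub_self]
    by_contra h0
    apply hf0
    ext x
    have h4 := h3 ((τ l - l)⁻¹ * x)
    rw [← mul_assoc, mul_inv_cancel₀ (sub_ne_zero.2 h0), one_mul] at h4
    exact h4
  obtain ⟨u, hu⟩ := exists_norm τ D.inv (tau_ne h2 D) hl0 hτl
  let g : X ≃ₗ[F] X := e' ≪≫ₗ mul F u ≪≫ₗ e.symm
  have hg : ∀ v, g v = e.symm (u * e' v) := fun _ => rfl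
  have hgB : ∀ x y, Φ.B (g x) (g y) = Φ'.B x y := by
    intro x y
    rw [hg, hg, hB, τ.map_mul]
    rw [show τ (u : L) * τ (e' y) * ((u : L) * e' x) = (u : L) * τ u * (τ (e' y) * e' x) by ring, hu, ← hl, ← hB',
      e'.symm_apply_apply, e'.symm_apply_apply]
  have hcomm : ∀ v, g (mu e' t' v) = mu e t' (g v) := by
    intro v
    rw [hg, e_mu, mu_apply, hg, e.apply_symm_apply, mul_left_comm]
  have hm := mem_iso h h2 D D'.tt
  refine ⟨g, hgB, fun x => ?_⟩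
  rcases hqq with ⟨h3, h4⟩ | ⟨⟨h3, h4⟩, h5, h6⟩
  · rw [h3, h4]
  · have h7 := eq_zero_of_semi h2 (fun x => Φ.q (g x) - Φ'.q x) (fun x y => ?_) (fun a x => ?_) (irr_mu e' D'.gen)
      (fun x => ?_) x
    · exact sub_eq_zero.1 h7
    · simp only [map_add, h3, h5, hgB]
      ring
    · simp only [map_smul, h4, h6]
      ring
    · rw [hcomm, hm.2, D'.mem.2]

end

section

variable {F V X : Type*} [Field F] [AddCommGroup V] [Module F V] [AddCommGroup X] [Module F X]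

/-- the pull back of a form -/
def fr (Φ : Frm F V) (ψ : X →ₗ[F] V) : Frm F X where
  B x y := Φ.B (ψ x) (ψ y)
  q x := Φ.q (ψ x)
  s := Φ.s
  add_left x y z := by rw [map_add, Φ.add_left]
  add_right x y z := by rw [map_add, Φ.add_right]
  smul_left a x y := by rw [map_smul, Φ.smul_left]
  smul_right a x y := by rw [map_smul, Φ.smul_right]
  refl x y h := Φ.refl _ _ h
  q_add x y h := by rw [map_add, Φ.q_add _ _ h]

theorem exists_gf [Finite F] {Φ : Frm F V} (h : Fo Φ) : ∃ ε, Gf Φ ε := by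
  rcases h with h | ⟨r, h⟩ | ⟨Q, h, rfl⟩
  · exact ⟨_, gf_of_isSp h⟩
  · exact ⟨_, gf_of_isHerm h⟩
  · exact ⟨_, gf_frmQ h⟩

/-- an embedded form with an irreducible isometry is zero or nondegenerate -/
theorem gf_fr [Finite F] [Module.Finite F X] {Φ : Frm F V} {ε : F} (h : Gf Φ ε) (h2 : 2 ≤ finrank F X) (ψ : X →ₗ[F] V)
    {m : X ≃ₗ[F] X} (hm : Irr m (⊤ : Submodule F X)) (hP : IsoP (pb Φ ψ) m) (h0 : pb Φ ψ ≠ 0) : Gf (fr Φ ψ) ε where
  nd := by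
    let R : Submodule F X :=
      { carrier := {x | ∀ y, Φ.B (ψ x) (ψ y) = 0}
        add_mem' := fun {a b} ha hb y => by rw [map_add, Φ.add_left, ha, hb, add_zero]
        zero_mem' := fun y => by rw [map_zero, ← zero_smul F (0 : V), Φ.smul_left, zero_mul]
        smul_mem' := fun a x hx y => by rw [map_smul, Φ.smul_left, hx, mul_zero] }
    have hR : Inv m R := by
      intro x hx y
      have h3 := hP.1 x (m.symm y)
      rw [m.apply_symm_apply] at h3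
      change Φ.B (ψ (m x)) (ψ y) = Φ.B (ψ x) (ψ (m.symm y)) at h3
      rw [h3]
      exact hx _
    rcases hm.min R le_top hR with h3 | h3
    · intro x hx
      have h4 : x ∈ R := fun y => hx y
      rwa [h3, Submodule.mem_bot] at h4
    · exfalso
      apply h0
      have hB : ∀ x y, Φ.B (ψ x) (ψ y) = 0 := fun x y => by
        have h4 : x ∈ R := by rw [h3]; trivial
        exact h4 y
      have hq : ∀ x, Φ.q (ψ x) = 0 := by
        rcases h.q with h4 | ⟨h4, h5⟩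
        · exact fun x => h4 _
        · intro x
          refine eq_zero_of_semi h2 (fun x => Φ.q (ψ x)) (fun x y => ?_) (fun a x => ?_) hm (fun x => hP.2 x) x
          · simp only [map_add, h4, hB, add_zero]
          · simp only [map_smul, h5]
      exact Prod.ext (funext fun x => funext fun y => hB x y) (funext fun x => hq x)
  inv := h.inv
  symm := fun x y => h.symm _ _
  q := by
    rcases h.q with h4 | ⟨h4, h5⟩
    · exact Or.inl fun x => h4 _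
    · refine Or.inr ⟨fun x y => ?_, fun a x => ?_⟩
      · show Φ.q (ψ (x + y)) = _
        rw [map_add, h4]
        rfl
      · show Φ.q (ψ (a • x)) = _
        rw [map_smul, h5]
        rfl

end

section

variable {F V X : Type} [Field F] [Finite F] [AddCommGroup V] [Module F V] [AddCommGroup X] [Module F X] [Module.Finite F X]
  {Φ : Frm F V} {ε : F}

omit [Finite F] [Module.Finite F X] in
/-- conjugates of irreducible maps -/
theorem irr_conj' {x g : X ≃ₗ[F] X} (h : Irr x (⊤ : Submodule F X)) : Irr (g * x * g⁻¹) (⊤ : Submodule F X) := by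
  refine ⟨fun _ _ => Submodule.mem_top, h.ne_bot, fun Y _ hY => ?_⟩
  have h5 := h.min (Y.comap (g : X →ₗ[F] X)) le_top (fun v hv => by
    have h6 := hY _ (Submodule.mem_comap.1 hv)
    have h7 : (g * x * g⁻¹) (g v) = g (x v) := by
      show g (x (g⁻¹ (g v))) = _
      rw [show g⁻¹ (g v) = v from g.symm_apply_apply v]
    change (g * x * g⁻¹) (g v) ∈ Y at h6
    rw [h7] at h6
    exact h6)
  rcases h5 with h5 | h5
  · left
    rw [eq_bot_iff]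
    intro y hy
    have h6 : g.symm y ∈ Y.comap (g : X →ₗ[F] X) := by
      show g (g.symm y) ∈ Y
      rwa [g.apply_symm_apply]
    rw [h5, Submodule.mem_bot, LinearEquiv.map_eq_zero_iff] at h6
    rw [h6]
    exact Submodule.zero_mem _
  · right
    rw [eq_top_iff]
    intro y _
    have h6 : g.symm y ∈ Y.comap (g : X →ₗ[F] X) := by rw [h5]; trivial
    change g (g.symm y) ∈ Y at h6
    rwa [g.apply_symm_apply] at h6

/-- one orbit -/
theorem exists_isom_pb (h : Gf Φ ε) (h2 : 2 ≤ finrank F X) {ψ ψ' : X →ₗ[F] V}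
    {m m' : X ≃ₗ[F] X} (hm : Irr m (⊤ : Submodule F X)) (hP : IsoP (pb Φ ψ) m) (h0 : pb Φ ψ ≠ 0)
    (hm' : Irr m' (⊤ : Submodule F X)) (hP' : IsoP (pb Φ ψ') m') (h0' : pb Φ ψ' ≠ 0) :
    ∃ g : X ≃ₗ[F] X, (∀ x y, (pb Φ ψ).1 (g x) (g y) = (pb Φ ψ').1 x y) ∧ ∀ x, (pb Φ ψ).2 (g x) = (pb Φ ψ').2 x := by
  obtain ⟨p, hp⟩ := CharP.exists F
  have hpp : Fact p.Prime := ⟨(CharP.char_is_prime_or_zero F p).resolve_right (CharP.char_ne_zero_of_finite F p)⟩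
  have hnz : NeZero (finrank F X) := ⟨by omega⟩
  have hV : Nontrivial X := Module.nontrivial_of_finrank_pos (R := F) (by omega)
  have hLf : finrank F (FiniteField.Extension F p (finrank F X)) = finrank F X := FiniteField.finrank_extension F p (finrank F X)
  have hG := gf_fr h h2 ψ hm hP h0
  have hG' := gf_fr h h2 ψ' hm' hP' h0'
  obtain ⟨e, t, ht, rfl⟩ := exists_mu hLf hm
  obtain ⟨e', t', ht', rfl⟩ := exists_mu hLf hm'
  obtain ⟨τ, D⟩ := exists_dt hG e t ht ⟨hP.1, hP.2⟩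
  obtain ⟨τ', D'⟩ := exists_dt hG' e' t' ht' ⟨hP'.1, hP'.2⟩
  refine exists_isom hG hG' rfl ?_ h2 D D'
  rcases h.q with h4 | ⟨h4, h5⟩
  · exact Or.inl ⟨fun x => h4 _, fun x => h4 _⟩
  · refine Or.inr ⟨⟨fun x y => ?_, fun a x => ?_⟩, fun x y => ?_, fun a x => ?_⟩
    · show Φ.q (ψ (x + y)) = _
      rw [map_add, h4]
      rfl
    · show Φ.q (ψ (a • x)) = _
      rw [map_smul, h5]
      rfl
    · show Φ.q (ψ' (x + y)) = _
      rw [map_add, h4]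
      rfl
    · show Φ.q (ψ' (a • x)) = _
      rw [map_smul, h5]
      rfl

/-- **the pairs with `P ≠ 0`** -/
theorem card_nz_le (h : Gf Φ ε) (h2 : 2 ≤ finrank F X) :
    finrank F X * Nat.card {x : ((X → X → F) × (X → F)) × (X ≃ₗ[F] X) // x.1 ≠ 0 ∧ Emb Φ x.1 ∧ IsoP x.1 x.2 ∧ Irr x.2 ⊤} ≤
      Nat.card (X ≃ₗ[F] X) := by
  classical
  have hfV : Finite X := Module.finite_of_finite F
  have hfin : Finite (X ≃ₗ[F] X) := Finite.of_injective (fun g : X ≃ₗ[F] X => (g : X → X)) DFunLike.coe_injective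
  by_cases hne : Nonempty {x : ((X → X → F) × (X → F)) × (X ≃ₗ[F] X) // x.1 ≠ 0 ∧ Emb Φ x.1 ∧ IsoP x.1 x.2 ∧ Irr x.2 ⊤}
  swap
  · have h3 : Nat.card {x : ((X → X → F) × (X → F)) × (X ≃ₗ[F] X) // x.1 ≠ 0 ∧ Emb Φ x.1 ∧ IsoP x.1 x.2 ∧ Irr x.2 ⊤} = 0 := by
      rw [Nat.card_eq_zero]
      exact Or.inl (not_nonempty_iff.1 hne)
    rw [h3, mul_zero]
    exact Nat.zero_le _
  obtain ⟨⟨⟨_, m₀⟩, h0, ⟨ψ₀, hψ₀, rfl⟩, hP₀, hm₀⟩⟩ := hne
  have hG := gf_fr h h2 ψ₀ hm₀ hP₀ h0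
  have hex : ∀ x : {x : ((X → X → F) × (X → F)) × (X ≃ₗ[F] X) // x.1 ≠ 0 ∧ Emb Φ x.1 ∧ IsoP x.1 x.2 ∧ Irr x.2 ⊤},
      ∃ g : X ≃ₗ[F] X, (∀ u v, Φ.B (ψ₀ (g u)) (ψ₀ (g v)) = x.1.1.1 u v) ∧ ∀ u, Φ.q (ψ₀ (g u)) = x.1.1.2 u := by
    intro x
    obtain ⟨ψ, -, hE⟩ := x.2.2.1
    have h0' := x.2.1
    have hP := x.2.2.2.1
    rw [← hE] at h0' hP ⊢
    exact exists_isom_pb h h2 hm₀ hP₀ h0 x.2.2.2.2 hP h0'
  choose g hgB hgq using hex
  have hbm : ∀ x : {x : ((X → X → F) × (X → F)) × (X ≃ₗ[F] X) // x.1 ≠ 0 ∧ Emb Φ x.1 ∧ IsoP x.1 x.2 ∧ Irr x.2 ⊤},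
      g x * x.1.2 * (g x)⁻¹ ∈ (fr Φ ψ₀).Bm := by
    intro x
    have h3 : ∀ u, g x ((g x)⁻¹ u) = u := fun u => (g x).apply_symm_apply u
    refine ⟨⟨fun u v => ?_, fun u => ?_⟩, irr_conj' x.2.2.2.2⟩
    · show Φ.B (ψ₀ (g x (x.1.2 ((g x)⁻¹ u)))) (ψ₀ (g x (x.1.2 ((g x)⁻¹ v)))) = Φ.B (ψ₀ u) (ψ₀ v)
      rw [hgB, x.2.2.2.1.1, ← hgB, h3, h3]
    · show Φ.q (ψ₀ (g x (x.1.2 ((g x)⁻¹ u)))) = Φ.q (ψ₀ u)
      rw [hgq, x.2.2.2.1.2, ← hgq, h3]
  have hbm2 : ∀ (k : (fr Φ ψ₀).Iso) (b : X ≃ₗ[F] X), b ∈ (fr Φ ψ₀).Bm → (k : X ≃ₗ[F] X) * b * (k : X ≃ₗ[F] X)⁻¹ ∈ (fr Φ ψ₀).Bm :=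
    fun k b hb => ⟨(fr Φ ψ₀).Iso.mul_mem ((fr Φ ψ₀).Iso.mul_mem k.2 hb.1) ((fr Φ ψ₀).Iso.inv_mem k.2), irr_conj' hb.2⟩
  have hinj := Nat.card_le_card_of_injective (fun p : {x : ((X → X → F) × (X → F)) × (X ≃ₗ[F] X) // x.1 ≠ 0 ∧ Emb Φ x.1 ∧
      IsoP x.1 x.2 ∧ Irr x.2 ⊤} × (fr Φ ψ₀).Iso =>
    (((p.2 : X ≃ₗ[F] X) * g p.1, ⟨_, hbm2 p.2 _ (hbm p.1)⟩) : (X ≃ₗ[F] X) × (fr Φ ψ₀).Bm)) (by
    rintro ⟨x, k⟩ ⟨x', k'⟩ hE
    have hE1 : (k : X ≃ₗ[F] X) * g x = k' * g x' := congrArg (fun p : (X ≃ₗ[F] X) × (fr Φ ψ₀).Bm => p.1) hE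
    have hE2 : (k : X ≃ₗ[F] X) * (g x * x.1.2 * (g x)⁻¹) * (k : X ≃ₗ[F] X)⁻¹ =
        k' * (g x' * x'.1.2 * (g x')⁻¹) * (k' : X ≃ₗ[F] X)⁻¹ :=
      congrArg (fun p : (X ≃ₗ[F] X) × (fr Φ ψ₀).Bm => (p.2 : X ≃ₗ[F] X)) hE
    have key1 : ∀ (x) (k : (fr Φ ψ₀).Iso), (fun u v => Φ.B (ψ₀ (((k : X ≃ₗ[F] X) * g x) u)) (ψ₀ (((k : X ≃ₗ[F] X) * g x) v))) =
        x.1.1.1 := by
      intro x k
      funext u v
      rw [← hgB]
      exact k.2.1 _ _
    have key2 : ∀ (x) (k : (fr Φ ψ₀).Iso), (fun u => Φ.q (ψ₀ (((k : X ≃ₗ[F] X) * g x) u))) = x.1.1.2 := by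
      intro x k
      funext u
      rw [← hgq]
      exact k.2.2 _
    have key3 : ∀ (x : {x : ((X → X → F) × (X → F)) × (X ≃ₗ[F] X) // x.1 ≠ 0 ∧ Emb Φ x.1 ∧
      IsoP x.1 x.2 ∧ Irr x.2 ⊤}) (k : (fr Φ ψ₀).Iso), ((k : X ≃ₗ[F] X) * g x)⁻¹ *
        ((k : X ≃ₗ[F] X) * (g x * x.1.2 * (g x)⁻¹) * (k : X ≃ₗ[F] X)⁻¹) * ((k : X ≃ₗ[F] X) * g x) = x.1.2 := by
      intro x k
      group
    obtain rfl : x = x' := by
      apply Subtype.ext
      refine Prod.ext (Prod.ext ?_ ?_) ?_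
      · rw [← key1 x k, ← key1 x' k', hE1]
      · rw [← key2 x k, ← key2 x' k', hE1]
      · rw [← key3 x k, ← key3 x' k', hE2, hE1]
    have h5 : k = k' := Subtype.ext (mul_right_cancel hE1)
    rw [h5])
  rw [Nat.card_prod, Nat.card_prod] at hinj
  have h3 := card_bm_le hG h2
  have hpos : 0 < Nat.card (fr Φ ψ₀).Iso := Nat.card_pos
  refine Nat.le_of_mul_le_mul_right ?_ hpos
  calc finrank F X * Nat.card {x : ((X → X → F) × (X → F)) × (X ≃ₗ[F] X) // x.1 ≠ 0 ∧ Emb Φ x.1 ∧ IsoP x.1 x.2 ∧ Irr x.2 ⊤} *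
        Nat.card (fr Φ ψ₀).Iso
      = finrank F X * (Nat.card {x : ((X → X → F) × (X → F)) × (X ≃ₗ[F] X) // x.1 ≠ 0 ∧ Emb Φ x.1 ∧ IsoP x.1 x.2 ∧ Irr x.2 ⊤} *
        Nat.card (fr Φ ψ₀).Iso) := by rw [mul_assoc]
    _ ≤ finrank F X * (Nat.card (X ≃ₗ[F] X) * Nat.card (fr Φ ψ₀).Bm) := Nat.mul_le_mul_left _ hinj
    _ = Nat.card (X ≃ₗ[F] X) * (Nat.card (fr Φ ψ₀).Bm * finrank F X) := by ring
    _ ≤ Nat.card (X ≃ₗ[F] X) * Nat.card (fr Φ ψ₀).Iso := Nat.mul_le_mul_left _ h3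

/-- **the number of irreducible maps** -/
theorem card_irr_le (k : ℕ) (hk : 1 ≤ k) :
    k * Nat.card {m : (Fin k → F) ≃ₗ[F] (Fin k → F) // Irr m (⊤ : Submodule F (Fin k → F))} ≤
      Nat.card ((Fin k → F) ≃ₗ[F] (Fin k → F)) := by
  classical
  let φ : Matrix.GeneralLinearGroup (Fin k) F ≃* ((Fin k → F) ≃ₗ[F] (Fin k → F)) :=
    Matrix.GeneralLinearGroup.toLin.trans (LinearMap.GeneralLinearGroup.generalLinearEquiv F (Fin k → F))
  have hφ : ∀ g v, φ g v = (g : Matrix (Fin k) (Fin k) F).mulVec v := fun g v => rfl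
  have h1 : Nat.card {m : (Fin k → F) ≃ₗ[F] (Fin k → F) // Irr m (⊤ : Submodule F (Fin k → F))} ≤
      Nat.card {g : Matrix.GeneralLinearGroup (Fin k) F // Cfsg.Agent.H50.RG.IrrM F g} := by
    have hfin : Finite {g : Matrix.GeneralLinearGroup (Fin k) F // Cfsg.Agent.H50.RG.IrrM F g} := inferInstance
    refine Nat.card_le_card_of_injective (fun m => ⟨φ.symm m.1, hk, fun Y hY => ?_⟩) fun a b hab => ?_
    · refine m.2.min Y le_top fun v hv => ?_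
      have h3 := hY v hv
      rw [← hφ, MulEquiv.apply_symm_apply] at h3
      exact h3
    · have h3 := Subtype.mk.inj hab
      exact Subtype.ext (φ.symm.injective h3)
  have h2 := Cfsg.Agent.H383.RG.rg_L02 F k hk
  rw [← Nat.card_congr φ.toEquiv]
  exact (Nat.mul_le_mul_left _ h1).trans h2

end

/-- **Yb** -/
theorem yb : Yb := by
  intro F V _ _ _ _ _ Φ hΦ k hk
  classical
  obtain ⟨ε, h⟩ := exists_gf hΦ
  have hfr : finrank F (Fin k → F) = k := by rw [Module.finrank_fintype_fun_eq_card, Fintype.card_fin]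
  have h1 := card_nz_le (X := Fin k → F) h (by rw [hfr]; exact hk)
  have h2 := card_irr_le (F := F) k (by omega)
  rw [hfr] at h1
  have hfin : Finite ((Fin k → F) ≃ₗ[F] (Fin k → F)) :=
    Finite.of_injective (fun g : (Fin k → F) ≃ₗ[F] (Fin k → F) => (g : (Fin k → F) → (Fin k → F))) DFunLike.coe_injective
  have h3 : Nat.card {x : (((Fin k → F) → (Fin k → F) → F) × ((Fin k → F) → F)) × ((Fin k → F) ≃ₗ[F] (Fin k → F)) //
      Emb Φ x.1 ∧ IsoP x.1 x.2 ∧ Irr x.2 ⊤} ≤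
      Nat.card ({x : (((Fin k → F) → (Fin k → F) → F) × ((Fin k → F) → F)) × ((Fin k → F) ≃ₗ[F] (Fin k → F)) //
      x.1 ≠ 0 ∧ Emb Φ x.1 ∧ IsoP x.1 x.2 ∧ Irr x.2 ⊤} ⊕
      {m : (Fin k → F) ≃ₗ[F] (Fin k → F) // Irr m (⊤ : Submodule F (Fin k → F))}) := by
    refine Nat.card_le_card_of_injective (fun x => if hx : x.1.1 ≠ 0 then Sum.inl ⟨x.1, hx, x.2⟩ else
      Sum.inr ⟨x.1.2, x.2.2.2⟩) ?_
    intro a b hab
    by_cases ha : a.1.1 ≠ 0
    · by_cases hb : b.1.1 ≠ 0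
      · simp only [ha, hb, dif_pos, Sum.inl.injEq, Subtype.mk.injEq, ne_eq, not_false_eq_true] at hab
        exact Subtype.ext hab
      · simp only [ha, hb, dif_pos, dif_neg, ne_eq, not_false_eq_true] at hab
        exact absurd hab (by simp)
    · by_cases hb : b.1.1 ≠ 0
      · simp only [ha, hb, dif_pos, dif_neg, ne_eq, not_false_eq_true] at hab
        exact absurd hab (by simp)
      · simp only [ha, hb, dif_neg, not_false_eq_true, Sum.inr.injEq, Subtype.mk.injEq] at hab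
        rw [not_not] at ha hb
        exact Subtype.ext (Prod.ext (ha.trans hb.symm) hab)
  rw [Nat.card_sum] at h3
  have h4 := Nat.mul_le_mul_left k h3
  rw [Nat.mul_add] at h4
  omega

end Cfsg.Agent.H557.Ux
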