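import Cfsg.Agent.H881.Bs.FieldExt
import Cfsg.Agent.H383.RG.Conj

/-!
# S5716, unbounded rank, UT2b: irreducible isometries (helper557)

`Φ` symplectic, hermitian or quadratic, `dim V = n ≥ 2`.

* `Gf` : the three kinds of forms; `gf_of_isSp`, `gf_of_isHerm`, `gf_frmQ`;
* `exists_dt` : the involution `τ` of the field `L` with `n` generated by an irreducible isometry `mu e t`;
* `mem_iso` : `mu e c` is an isometry, if `τ c * c = 1`;
* `exists_conj` : every irreducible isometry `mu e' t'` is conjugate in `Φ.Iso` to `mu e t'`;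
* `card_bm_le` : `|Φ.Bm| * dim V ≤ |Φ.Iso|`.
-/

set_option autoImplicit false

namespace Cfsg.Agent.H557.Ux

open Module Cfsg.Agent.H847.Bs Cfsg.Agent.H881.Bs

section

variable {F V : Type*} [Field F] [AddCommGroup V] [Module F V]

/-- symplectic, hermitian and quadratic forms -/
structure Gf (Φ : Frm F V) (ε : F) : Prop where
  nd : Φ.Nd
  inv : ∀ a, Φ.s (Φ.s a) = a
  symm : ∀ x y, Φ.B y x = ε * Φ.s (Φ.B x y)
  q : (∀ x, Φ.q x = 0) ∨ (∀ x y, Φ.q (x + y) = Φ.q x + Φ.q y + Φ.B x y) ∧ ∀ (a : F) (x), Φ.q (a • x) = a ^ 2 * Φ.q x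

theorem gf_of_isSp {Φ : Frm F V} (h : IsSp Φ) : Gf Φ (-1) where
  nd := h.nd
  inv := fun a => by rw [h.s, h.s]
  symm := fun x y => by
    have h1 := h.alt (x + y)
    rw [Φ.add_left, Φ.add_right, Φ.add_right, h.alt, h.alt] at h1
    rw [h.s]
    linear_combination h1
  q := Or.inl h.q

theorem gf_of_isHerm {r : ℕ} {Φ : Frm F V} [Finite F] (h : IsHerm r Φ) : Gf Φ 1 where
  nd := h.nd
  inv := fun a => by
    have := Fintype.ofFinite F
    rw [h.s, h.s, ← pow_mul, ← sq, ← h.card, Nat.card_eq_fintype_card, FiniteField.pow_card]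
  symm := fun x y => by rw [h.s, one_mul, h.symm]
  q := Or.inl h.q

theorem gf_frmQ {Q : QuadraticForm F V} (h : (frmQ Q).Nd) : Gf (frmQ Q) 1 where
  nd := h
  inv := fun _ => rfl
  symm := fun x y => by
    show QuadraticMap.polar Q y x = 1 * QuadraticMap.polar Q x y
    rw [one_mul, QuadraticMap.polar_comm]
  q := Or.inr ⟨fun x y => by
    show Q (x + y) = Q x + Q y + QuadraticMap.polar Q x y
    rw [QuadraticMap.polar]; ring, fun a x => by
    show Q (a • x) = a ^ 2 * Q x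
    rw [QuadraticMap.map_smul, smul_eq_mul, sq]⟩

variable {Φ : Frm F V} {ε : F}

theorem Gf.exists_B_ne [Nontrivial V] (h : Gf Φ ε) : ∃ x y, Φ.B x y ≠ 0 := by
  obtain ⟨x, hx⟩ := exists_ne (0 : V)
  by_contra h1
  push Not at h1
  exact hx (h.nd x fun y => h1 x y)

theorem Gf.s_add [Nontrivial V] (h : Gf Φ ε) (a b : F) : Φ.s (a + b) = Φ.s a + Φ.s b := by
  obtain ⟨x, y, hxy⟩ := h.exists_B_ne
  apply mul_right_cancel₀ hxy
  rw [← Φ.smul_right, add_smul, Φ.add_right, Φ.smul_right, Φ.smul_right, add_mul]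

theorem Gf.s_mul [Nontrivial V] (h : Gf Φ ε) (a b : F) : Φ.s (a * b) = Φ.s a * Φ.s b := by
  obtain ⟨x, y, hxy⟩ := h.exists_B_ne
  apply mul_right_cancel₀ hxy
  rw [← Φ.smul_right, mul_smul, Φ.smul_right, Φ.smul_right, mul_assoc]

theorem Gf.nd' (h : Gf Φ ε) {y : V} (hy : ∀ x, Φ.B x y = 0) : y = 0 :=
  h.nd y fun x => Φ.refl _ _ (hy x)

end

section

variable {F V L : Type*} [Field F] [AddCommGroup V] [Module F V] [Field L] [Algebra F L]

/-- an irreducible isometry, as an element of the field `L`, with the involution `τ` of `L` -/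
structure Dt (Φ : Frm F V) (e : V ≃ₗ[F] L) (t : Lˣ) (τ : L →+* L) : Prop where
  gen : Gen F (t : L)
  mem : mu e t ∈ Φ.Iso
  adj : ∀ c x y, Φ.B (e.symm (c * x)) (e.symm y) = Φ.B (e.symm x) (e.symm (τ c * y))
  map : ∀ a : F, τ (algebraMap F L a) = algebraMap F L (Φ.s a)
  tt : τ t * t = 1
  inv : ∀ c, τ (τ c) = c

variable {Φ : Frm F V} {ε : F}

/-- **the involution** -/
theorem exists_dt (h : Gf Φ ε) (e : V ≃ₗ[F] L) (t : Lˣ) (ht : Gen F (t : L)) (hm : mu e t ∈ Φ.Iso) :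
    ∃ τ : L →+* L, Dt Φ e t τ := by
  have hV : Nontrivial V := e.toEquiv.nontrivial
  have hex : ∀ c : L, ∃ d : L, ∀ x y, Φ.B (e.symm (c * x)) (e.symm y) = Φ.B (e.symm x) (e.symm (d * y)) := by
    refine ht.mem _ (fun a => ⟨algebraMap F L (Φ.s a), fun x y => ?_⟩) ⟨((t⁻¹ : Lˣ) : L), fun x y => ?_⟩ ?_ ?_
    · rw [← Algebra.smul_def, ← Algebra.smul_def, map_smul, map_smul, Φ.smul_left, Φ.smul_right, h.inv]
    · have h1 := hm.1 (e.symm x) (e.symm (((t⁻¹ : Lˣ) : L) * y))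
      rw [mu_apply, mu_apply, e.apply_symm_apply, e.apply_symm_apply, ← mul_assoc, Units.mul_inv, one_mul] at h1
      exact h1
    · rintro x y ⟨d, hd⟩ ⟨d', hd'⟩
      refine ⟨d + d', fun u v => ?_⟩
      rw [add_mul, add_mul, map_add, map_add, Φ.add_left, Φ.add_right, hd, hd']
    · rintro x y ⟨d, hd⟩ ⟨d', hd'⟩
      refine ⟨d' * d, fun u v => ?_⟩
      rw [mul_assoc, hd, hd', mul_assoc]
  have hun : ∀ d d' : L, (∀ x, Φ.B (e.symm x) (e.symm (d * 1)) = Φ.B (e.symm x) (e.symm (d' * 1))) → d = d' := by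
    intro d d' hd
    have h1 : e.symm (d - d') = 0 := by
      apply h.nd'
      intro x
      have h2 := hd (e x)
      rw [e.symm_apply_apply, mul_one, mul_one] at h2
      have h3 : Φ.B x (e.symm d) = Φ.B x (e.symm d' + e.symm (d - d')) := by
        rw [← map_add, add_sub_cancel]
      rw [h2, Φ.add_right] at h3
      exact left_eq_add.1 h3
    rw [LinearEquiv.map_eq_zero_iff, sub_eq_zero] at h1
    exact h1
  choose τ hτ using hex
  refine ⟨{ toFun := τ, map_one' := ?_, map_mul' := ?_, map_zero' := ?_, map_add' := ?_ }, ht, hm, hτ, ?_, ?_, ?_⟩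
  · refine hun _ _ fun x => ?_
    rw [← hτ, one_mul, one_mul]
  · intro c d
    refine hun _ _ fun x => ?_
    rw [← hτ, mul_comm (τ c), mul_assoc (τ d), ← hτ, ← hτ, mul_assoc]
  · refine hun _ _ fun x => ?_
    rw [← hτ, zero_mul, zero_mul, map_zero]
    have h1 : Φ.B (0 : V) (e.symm 1) = 0 := by
      rw [← zero_smul F (0 : V), Φ.smul_left, zero_mul]
    rw [h1]
    exact (Φ.refl _ _ (by rw [← zero_smul F (0 : V), Φ.smul_left, zero_mul])).symm
  · intro c d
    refine hun _ _ fun x => ?_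
    rw [← hτ, add_mul, map_add, Φ.add_left, hτ, hτ, ← Φ.add_right, ← map_add, ← add_mul]
  · intro a
    refine hun _ _ fun x => ?_
    show Φ.B _ (e.symm (τ _ * 1)) = _
    rw [← hτ, ← Algebra.smul_def, ← Algebra.smul_def, map_smul, map_smul, Φ.smul_left, Φ.smul_right, h.inv]
  · have h1 : τ (t : L) = ((t⁻¹ : Lˣ) : L) := by
      refine hun _ _ fun x => ?_
      rw [← hτ]
      have h1 := hm.1 (e.symm x) (e.symm (((t⁻¹ : Lˣ) : L) * 1))
      rw [mu_apply, mu_apply, e.apply_symm_apply, e.apply_symm_apply, ← mul_assoc, Units.mul_inv, one_mul] at h1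
      exact h1
    show τ (t : L) * t = 1
    rw [h1, Units.inv_mul]
  · intro c
    refine hun _ _ fun x => ?_
    show Φ.B _ (e.symm (τ (τ c) * 1)) = _
    rw [← hτ]
    have h1 : ∀ x y, Φ.B (e.symm (τ c * x)) (e.symm y) = Φ.B (e.symm x) (e.symm (c * y)) := by
      intro x y
      rw [h.symm (e.symm y), h.symm (e.symm (c * y)), ← hτ]
    exact h1 x 1

/-- a semilinear invariant function is zero -/
theorem eq_zero_of_semi [Finite F] [Module.Finite F V] (h2 : 2 ≤ finrank F V) (D : V → F) (hadd : ∀ x y, D (x + y) = D x + D y)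
    (hsm : ∀ (a : F) (x), D (a • x) = a ^ 2 * D x) {z : V ≃ₗ[F] V} (hz : Irr z (⊤ : Submodule F V))
    (hD : ∀ x, D (z x) = D x) (x : V) : D x = 0 := by
  have hfV : Finite V := Module.finite_of_finite F
  let W : Submodule F V :=
    { carrier := {x | D x = 0}
      add_mem' := fun {a b} ha hb => by
        show D (a + b) = 0
        rw [hadd, show D a = 0 from ha, show D b = 0 from hb, add_zero]
      zero_mem' := by
        show D 0 = 0
        rw [← zero_smul F (0 : V), hsm, zero_pow two_ne_zero, zero_mul]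
      smul_mem' := fun a x hx => by
        show D (a • x) = 0
        rw [hsm, show D x = 0 from hx, mul_zero] }
  have hW : Inv z W := fun v hv => by
    show D (z v) = 0
    rw [hD]
    exact hv
  rcases hz.min W le_top hW with h | h
  · exfalso
    have hinj : Function.Injective D := by
      intro a b hab
      have h3 : a - b ∈ W := by
        show D (a - b) = 0
        have h4 : D (a - b + b) = D (a - b) + D b := hadd _ _
        rw [sub_add_cancel, hab] at h4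
        exact right_eq_add.1 h4
      rw [h, Submodule.mem_bot, sub_eq_zero] at h3
      exact h3
    have h3 := Nat.card_le_card_of_injective D hinj
    rw [Module.natCard_eq_pow_finrank (K := F) (V := V)] at h3
    have h4 : 1 < Nat.card F := Finite.one_lt_card
    have h5 : Nat.card F ^ 1 < Nat.card F ^ finrank F V := Nat.pow_lt_pow_right h4 (by omega)
    rw [pow_one] at h5
    omega
  · have h3 : x ∈ W := by rw [h]; trivial
    exact h3

theorem q_eq [Finite F] [Module.Finite F V] (h : Gf Φ ε) (h2 : 2 ≤ finrank F V) {z g : V ≃ₗ[F] V}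
    (hz : Irr z (⊤ : Submodule F V)) (hg : ∀ x y, Φ.B (g x) (g y) = Φ.B x y)
    (hq : ∀ x, Φ.q (g (z x)) - Φ.q (z x) = Φ.q (g x) - Φ.q x) (x : V) : Φ.q (g x) = Φ.q x := by
  rcases h.q with h3 | ⟨h3, h4⟩
  · rw [h3, h3]
  · have h5 := eq_zero_of_semi h2 (fun x => Φ.q (g x) - Φ.q x) (fun x y => ?_) (fun a x => ?_) hz hq x
    · exact sub_eq_zero.1 h5
    · simp only [map_add, h3, hg]
      ring
    · simp only [map_smul, h4]
      ring

theorem mu_mul_comm (e : V ≃ₗ[F] L) (c d : Lˣ) (v : V) : mu e c (mu e d v) = mu e d (mu e c v) := by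
  rw [mu_apply, e_mu, mu_apply e d, e_mu, mul_left_comm]

/-- isometries of order `R + 1` -/
theorem mem_iso [Finite F] [Module.Finite F V] (h : Gf Φ ε) (h2 : 2 ≤ finrank F V) {e : V ≃ₗ[F] L} {t : Lˣ} {τ : L →+* L}
    (D : Dt Φ e t τ) {c : Lˣ} (hc : τ c * c = 1) : mu e c ∈ Φ.Iso := by
  have hB : ∀ x y, Φ.B (mu e c x) (mu e c y) = Φ.B x y := by
    intro x y
    rw [mu_apply, mu_apply, D.adj, ← mul_assoc, hc, one_mul, e.symm_apply_apply, e.symm_apply_apply]
  refine ⟨hB, q_eq h h2 (irr_mu e D.gen) hB fun x => ?_⟩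
  rw [mu_mul_comm, D.mem.2, D.mem.2]

/-- `τ` is not the identity -/
theorem tau_ne [Module.Finite F V] (h2 : 2 ≤ finrank F V) {e : V ≃ₗ[F] L} {t : Lˣ} {τ : L →+* L}
    (D : Dt Φ e t τ) : ∃ c, τ c ≠ c := by
  by_contra hno
  push Not at hno
  have h1 := D.tt
  rw [hno] at h1
  have h3 : ∃ a : F, (t : L) = algebraMap F L a := by
    rcases mul_self_eq_one_iff.1 h1 with h3 | h3
    · exact ⟨1, by rw [h3, map_one]⟩
    · exact ⟨-1, by rw [h3, map_neg, map_one]⟩
  obtain ⟨a, ha⟩ := h3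
  have h4 : (⊥ : Subalgebra F L) = ⊤ := by
    rw [← D.gen, eq_comm, eq_bot_iff, Algebra.adjoin_le_iff, Set.singleton_subset_iff, ha]
    exact Subalgebra.algebraMap_mem _ _
  rw [Subalgebra.bot_eq_top_iff_finrank_eq_one, ← e.finrank_eq] at h4
  omega

/-- an involution of a finite field -/
theorem exists_R [Finite L] (τ : L →+* L) (h2 : ∀ c, τ (τ c) = c) (h1 : ∃ c, τ c ≠ c) :
    ∃ R, Nat.card L = R ^ 2 ∧ ∀ x, τ x = x ^ R := by
  obtain ⟨p, hp⟩ := CharP.exists L
  have hpp : Fact p.Prime := ⟨(CharP.char_is_prime_or_zero L p).resolve_right (CharP.char_ne_zero_of_finite L p)⟩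
  let _ : Algebra (ZMod p) L := ZMod.algebra L p
  have hcom : ∀ a : ZMod p, τ (algebraMap (ZMod p) L a) = algebraMap (ZMod p) L a := fun a =>
    congrFun (congrArg DFunLike.coe (Subsingleton.elim (τ.comp (algebraMap (ZMod p) L)) (algebraMap (ZMod p) L))) a
  let σ₀ : L →ₐ[ZMod p] L := { τ with commutes' := hcom }
  let σ : L ≃ₐ[ZMod p] L := AlgEquiv.ofBijective σ₀ (Finite.injective_iff_bijective.1 τ.injective)
  obtain ⟨i, hi⟩ := FiniteField.exists_forall_apply_eq_pow (ZMod p) p L σ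
  have hi' : ∀ x, τ x = x ^ (p ^ i) := fun x => by
    have h3 := hi x
    rw [Nat.card_zmod] at h3
    exact h3
  have : Fintype L := Fintype.ofFinite L
  obtain ⟨m, hm0, hm'⟩ : ∃ m : ℕ, 0 < m ∧ Nat.card L = p ^ m := by
    obtain ⟨m, -, hm⟩ := FiniteField.card L p
    exact ⟨m, m.pos, by rw [Nat.card_eq_fintype_card, hm]⟩
  have hp1 : 1 < p := hpp.out.one_lt
  have hA : ∀ j, 0 < j → j < m → ∃ x : L, x ^ (p ^ j) ≠ x := by
    intro j hj hjm
    by_contra hno
    push Not at hno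
    have h3 := card_pow_eq_le (L := L) (Nat.one_lt_pow hj.ne' hp1)
    rw [Nat.card_congr (Equiv.subtypeUnivEquiv hno), hm'] at h3
    have h4 := Nat.pow_lt_pow_right hp1 hjm
    omega
  have hcard : ∀ k (x : L), x ^ ((p ^ m) ^ k) = x := by
    intro k x
    rw [← hm', Nat.card_eq_fintype_card]
    exact FiniteField.pow_card_pow k x
  set j := i % m with hj
  have hjm : j < m := Nat.mod_lt _ hm0
  have hτj : ∀ x, τ x = x ^ (p ^ j) := by
    intro x
    rw [hi' x, ← Nat.div_add_mod i m, pow_add, pow_mul, pow_mul, hcard]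
  have hj0 : 0 < j := by
    by_contra h0
    obtain ⟨c, hc⟩ := h1
    apply hc
    rw [hτj, show j = 0 by omega, pow_zero, pow_one]
  have h2j : ∀ x : L, x ^ (p ^ (2 * j)) = x := by
    intro x
    have h3 := h2 x
    rw [hτj, hτj, ← pow_mul, ← pow_add, ← two_mul] at h3
    exact h3
  have h3 : 2 * j = m := by
    rcases Nat.lt_trichotomy (2 * j) m with h3 | h3 | h3
    · obtain ⟨x, hx⟩ := hA (2 * j) (by omega) h3
      exact absurd (h2j x) hx
    · exact h3
    · obtain ⟨x, hx⟩ := hA (2 * j - m) (by omega) (by omega)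
      exfalso
      apply hx
      have h4 := h2j x
      rw [show 2 * j = m * 1 + (2 * j - m) by omega, pow_add, pow_mul, pow_mul, hcard] at h4
      exact h4
  exact ⟨p ^ j, by rw [hm', ← h3, ← pow_mul, mul_comm], hτj⟩

/-- two involutions coincide -/
theorem tau_eq [Finite L] {τ τ' : L →+* L} (h : ∀ c, τ (τ c) = c) (h1 : ∃ c, τ c ≠ c) (h' : ∀ c, τ' (τ' c) = c)
    (h1' : ∃ c, τ' c ≠ c) : τ = τ' := by
  obtain ⟨R, hR, hτ⟩ := exists_R τ h h1
  obtain ⟨R', hR', hτ'⟩ := exists_R τ' h' h1'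
  have h3 : R = R' := Nat.pow_left_injective two_ne_zero (hR.symm.trans hR')
  exact RingHom.ext fun x => by rw [hτ, hτ', h3]

/-- the norm is surjective -/
theorem exists_norm [Finite L] (τ : L →+* L) (h2 : ∀ c, τ (τ c) = c) (h1 : ∃ c, τ c ≠ c) {l : L} (hl : l ≠ 0) (hτl : τ l = l) :
    ∃ u : Lˣ, (u : L) * τ u = l := by
  obtain ⟨R, hR, hτ⟩ := exists_R τ h2 h1
  have hR1 : 1 < R := by
    by_contra h0
    have h3 : 1 < Nat.card L := Finite.one_lt_card
    rw [hR] at h3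
    have h4 : R ≤ 1 := by omega
    have h5 : R ^ 2 ≤ 1 ^ 2 := Nat.pow_le_pow_left h4 2
    omega
  obtain ⟨g, hg⟩ := IsCyclic.exists_generator (α := Lˣ)
  obtain ⟨a, ha⟩ := mem_powers_iff_mem_zpowers.2 (hg (Units.mk0 l hl))
  have ha' : g ^ a = Units.mk0 l hl := ha
  have ho : orderOf g = (R - 1) * (R + 1) := by
    rw [orderOf_eq_card_of_forall_mem_zpowers hg, Nat.card_units, hR]
    obtain ⟨k, rfl⟩ : ∃ k, R = k + 1 := ⟨R - 1, by omega⟩
    rw [Nat.add_sub_cancel]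
    have h3 : (k + 1) ^ 2 = k * (k + 1 + 1) + 1 := by ring
    rw [h3, Nat.add_sub_cancel]
  have h3 : (g ^ a) ^ (R - 1) = 1 := by
    rw [ha']
    apply mul_right_cancel (b := Units.mk0 l hl)
    rw [← pow_succ, Nat.sub_add_cancel (by omega), one_mul]
    apply Units.ext
    rw [Units.val_pow_eq_pow_val, Units.val_mk0, ← hτ, hτl]
  rw [← pow_mul] at h3
  have h4 := orderOf_dvd_of_pow_eq_one h3
  rw [ho, mul_comm a] at h4
  obtain ⟨k, hk⟩ := Nat.dvd_of_mul_dvd_mul_left (by omega) h4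
  refine ⟨g ^ k, ?_⟩
  rw [hτ, ← pow_succ', ← Units.val_pow_eq_pow_val, ← pow_mul, mul_comm k, ← hk, ha', Units.val_mk0]

/-- functionals of `L` -/
theorem exists_functional [FiniteDimensional F L] (f f' : L →ₗ[F] F) (hf : f ≠ 0) : ∃ l : L, ∀ x, f' x = f (l * x) := by
  let T : L →ₗ[F] (L →ₗ[F] F) := (LinearMap.mul F L).compr₂ f
  have hT : ∀ l x, T l x = f (l * x) := fun _ _ => rfl
  have hinj : Function.Injective T := by
    rw [injective_iff_map_eq_zero]
    intro l hl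
    by_contra h0
    apply hf
    ext x
    have h1 : T l (l⁻¹ * x) = 0 := by rw [hl]; rfl
    rw [hT, ← mul_assoc, mul_inv_cancel₀ h0, one_mul] at h1
    exact h1
  have hsurj : Function.Surjective T :=
    (LinearMap.injective_iff_surjective_of_finrank_eq_finrank (Subspace.dual_finrank_eq (K := F) (V := L)).symm).1 hinj
  obtain ⟨l, hl⟩ := hsurj f'
  exact ⟨l, fun x => by rw [← hT, hl]⟩

/-- **irreducible isometries are conjugate to elements of the torus** -/
theorem exists_conj [Finite F] [Finite L] [Module.Finite F V] (h : Gf Φ ε) (h2 : 2 ≤ finrank F V) {e e' : V ≃ₗ[F] L}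
    {t t' : Lˣ} {τ τ' : L →+* L} (D : Dt Φ e t τ) (D' : Dt Φ e' t' τ') :
    ∃ g ∈ Φ.Iso, g * mu e' t' * g⁻¹ = mu e t' := by
  have hfd : FiniteDimensional F L := Module.Finite.of_finite
  have hV : Nontrivial V := e.toEquiv.nontrivial
  obtain rfl : τ = τ' := tau_eq D.inv (tau_ne h2 D) D'.inv (tau_ne h2 D')
  -- the functionals
  have hf : ∀ (e : V ≃ₗ[F] L), ∃ f : L →ₗ[F] F, ∀ x, f x = Φ.B (e.symm x) (e.symm 1) := fun e =>
    ⟨{ toFun := fun x => Φ.B (e.symm x) (e.symm 1)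
       map_add' := fun x y => by rw [map_add, Φ.add_left]
       map_smul' := fun a x => by rw [map_smul, Φ.smul_left]; rfl }, fun _ => rfl⟩
  obtain ⟨f, hf1⟩ := hf e
  obtain ⟨f', hf1'⟩ := hf e'
  have hB : ∀ x y, Φ.B (e.symm x) (e.symm y) = f (τ y * x) := by
    intro x y
    rw [hf1, D.adj, D.inv, mul_one]
  have hB' : ∀ x y, Φ.B (e'.symm x) (e'.symm y) = f' (τ y * x) := by
    intro x y
    rw [hf1', D'.adj, D'.inv, mul_one]
  have hs : ∀ z, f (τ z) = ε * Φ.s (f z) := by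
    intro z
    rw [hf1, hf1, ← h.symm, ← mul_one (τ z), D.adj, D.inv, mul_one]
  have hs' : ∀ z, f' (τ z) = ε * Φ.s (f' z) := by
    intro z
    rw [hf1', hf1', ← h.symm, ← mul_one (τ z), D'.adj, D'.inv, mul_one]
  have hf0 : f ≠ 0 := by
    rintro rfl
    obtain ⟨x, y, hxy⟩ := h.exists_B_ne
    apply hxy
    rw [← e.symm_apply_apply x, ← e.symm_apply_apply y, hB]
    rfl
  obtain ⟨l, hl⟩ := exists_functional f f' hf0
  have hl0 : l ≠ 0 := by
    rintro rfl
    obtain ⟨x, y, hxy⟩ := h.exists_B_ne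
    apply hxy
    rw [← e'.symm_apply_apply x, ← e'.symm_apply_apply y, hB', hl, zero_mul, map_zero]
  have hτl : τ l = l := by
    have h3 : ∀ z, f ((τ l - l) * z) = 0 := by
      intro z
      have h4 := hs' (τ z)
      rw [hl, hl, ← hs, τ.map_mul, D.inv] at h4
      rw [sub_mul, map_sub, h4, sub_self]
    by_contra h0
    apply hf0
    ext x
    have h4 := h3 ((τ l - l)⁻¹ * x)
    rw [← mul_assoc, mul_inv_cancel₀ (sub_ne_zero.2 h0), one_mul] at h4
    exact h4
  obtain ⟨u, hu⟩ := exists_norm τ D.inv (tau_ne h2 D) hl0 hτl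
  let g : V ≃ₗ[F] V := e' ≪≫ₗ mul F u ≪≫ₗ e.symm
  have hg : ∀ v, g v = e.symm (u * e' v) := fun _ => rfl
  have hgB : ∀ x y, Φ.B (g x) (g y) = Φ.B x y := by
    intro x y
    rw [hg, hg, hB, τ.map_mul]
    rw [show τ (u : L) * τ (e' y) * ((u : L) * e' x) = (u : L) * τ u * (τ (e' y) * e' x) by ring, hu, ← hl, ← hB',
      e'.symm_apply_apply, e'.symm_apply_apply]
  have hcomm : ∀ v, g (mu e' t' v) = mu e t' (g v) := by
    intro v
    rw [hg, e_mu, mu_apply, hg, e.apply_symm_apply, mul_left_comm]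
  have hm := mem_iso h h2 D D'.tt
  refine ⟨g, ⟨hgB, q_eq h h2 (irr_mu e' D'.gen) hgB fun x => ?_⟩, ?_⟩
  · rw [hcomm, hm.2, D'.mem.2]
  · rw [mul_inv_eq_iff_eq_mul]
    exact LinearEquiv.ext hcomm

theorem gen_map (σ : L ≃ₐ[F] L) {t : L} (h : Gen F t) : Gen F (σ t) := by
  have h1 : ∀ y, σ y ∈ Algebra.adjoin F {σ t} :=
    h.mem (fun y => σ y ∈ Algebra.adjoin F {σ t})
      (fun a => by rw [AlgEquiv.commutes]; exact Subalgebra.algebraMap_mem _ a)
      (Algebra.subset_adjoin (Set.mem_singleton _))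
      (fun x y hx hy => by rw [map_add]; exact Subalgebra.add_mem _ hx hy)
      (fun x y hx hy => by rw [map_mul]; exact Subalgebra.mul_mem _ hx hy)
  unfold Gen
  rw [eq_top_iff]
  intro y _
  rw [← σ.apply_symm_apply y]
  exact h1 _

/-- Galois conjugation of a unit -/
def gU (σ : L ≃ₐ[F] L) : Lˣ →* Lˣ := Units.map (σ : L →* L)

theorem gU_val (σ : L ≃ₐ[F] L) (t : Lˣ) : ((gU σ t : Lˣ) : L) = σ t := rfl

theorem mu_gal (e : V ≃ₗ[F] L) (σ : L ≃ₐ[F] L) (t : Lˣ) : mu (e ≪≫ₗ σ.toLinearEquiv) (gU σ t) = mu e t := by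
  apply LinearEquiv.ext
  intro v
  apply (e ≪≫ₗ σ.toLinearEquiv).injective
  rw [e_mu]
  show σ t * σ (e v) = σ (e (mu e t v))
  rw [e_mu, map_mul]

/-- change of the element of the torus -/
theorem dt_of [Finite F] [Finite L] [Module.Finite F V] (h : Gf Φ ε) (h2 : 2 ≤ finrank F V) {e : V ≃ₗ[F] L} {t : Lˣ}
    {τ : L →+* L} (D : Dt Φ e t τ) {c : Lˣ} (hc : Gen F (c : L)) (hcc : τ c * c = 1) : Dt Φ e c τ where
  gen := hc
  mem := mem_iso h h2 D hcc
  adj := D.adj
  map := D.map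
  tt := hcc
  inv := D.inv

theorem exists_gal_conj [Finite F] [Finite L] [Module.Finite F V] (h : Gf Φ ε) (h2 : 2 ≤ finrank F V) {e : V ≃ₗ[F] L}
    {t : Lˣ} {τ : L →+* L} (D : Dt Φ e t τ) (σ : L ≃ₐ[F] L) : ∃ g ∈ Φ.Iso, g * mu e t * g⁻¹ = mu e (gU σ t) := by
  have h3 := mu_gal e σ t
  obtain ⟨τ', D'⟩ := exists_dt h (e ≪≫ₗ σ.toLinearEquiv) (gU σ t) (gen_map σ D.gen) (by rw [h3]; exact D.mem)
  have h4 := exists_conj h h2 D D'
  rw [h3] at h4
  exact h4

theorem tau_gal [Finite F] [Finite L] [Module.Finite F V] (h2 : 2 ≤ finrank F V) {e : V ≃ₗ[F] L}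
    {t : Lˣ} {τ : L →+* L} (D : Dt Φ e t τ) (σ : L ≃ₐ[F] L) (c : L) : τ (σ c) = σ (τ c) := by
  obtain ⟨R, -, hR⟩ := exists_R τ D.inv (tau_ne h2 D)
  rw [hR, hR, map_pow]

end

section

variable {F V : Type} [Field F] [Finite F] [AddCommGroup V] [Module F V] [Module.Finite F V] {Φ : Frm F V} {ε : F}

/-- an irreducible map is a multiplication -/
theorem exists_mu {L : Type} [Field L] [Finite L] [Algebra F L] [Nontrivial V] (hL : finrank F L = finrank F V) {z : V ≃ₗ[F] V}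
    (hz : Irr z (⊤ : Submodule F V)) : ∃ (e : V ≃ₗ[F] L) (t : Lˣ), Gen F (t : L) ∧ z = mu e t := by
  obtain ⟨e, u, hu⟩ := Cfsg.Agent.H383.RG.exists_model hL z fun W hW => hz.min W le_top hW
  have hu0 : u ≠ 0 := by
    rintro rfl
    have h1 := hu 1
    rw [zero_mul, map_zero, eq_comm, LinearEquiv.map_eq_zero_iff, LinearEquiv.map_eq_zero_iff] at h1
    exact one_ne_zero h1
  have hz' : z = mu e.symm (Units.mk0 u hu0) := by
    apply LinearEquiv.ext
    intro v
    rw [mu_apply, Units.val_mk0]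
    show z v = e (u * e.symm v)
    rw [hu, e.apply_symm_apply]
  refine ⟨e.symm, Units.mk0 u hu0, ?_, hz'⟩
  rw [Units.val_mk0]
  have h1 := hz.min ((Subalgebra.toSubmodule (Algebra.adjoin F {u})).map (e : L →ₗ[F] V)) le_top (by
    rintro _ ⟨y, hy, rfl⟩
    refine ⟨u * y, ?_, hu y⟩
    exact Subalgebra.mul_mem _ (Algebra.subset_adjoin (Set.mem_singleton u)) hy)
  rcases h1 with h1 | h1
  · exfalso
    have h3 : e 1 ∈ (Subalgebra.toSubmodule (Algebra.adjoin F {u})).map (e : L →ₗ[F] V) :=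
      ⟨1, Subalgebra.one_mem _, rfl⟩
    rw [h1, Submodule.mem_bot, LinearEquiv.map_eq_zero_iff] at h3
    exact one_ne_zero h3
  · unfold Gen
    rw [eq_top_iff]
    intro y _
    have h3 : e y ∈ (Subalgebra.toSubmodule (Algebra.adjoin F {u})).map (e : L →ₗ[F] V) := by rw [h1]; trivial
    obtain ⟨y', hy', h4⟩ := h3
    have h5 : y' = y := e.injective h4
    rw [← h5]
    exact hy'

/-- **all irreducible isometries**: a field `L`, a transport `e`, and the involution `τ`, if there is one -/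
theorem exists_torus (h : Gf Φ ε) (h2 : 2 ≤ finrank F V) (hne : ∃ z, z ∈ Φ.Bm) {L : Type} [Field L] [Finite L] [Algebra F L]
    (hL : finrank F L = finrank F V) :
    ∃ (e : V ≃ₗ[F] L) (t : Lˣ) (τ : L →+* L), Dt Φ e t τ ∧ ∀ z ∈ Φ.Bm, ∃ g ∈ Φ.Iso, ∃ c : Lˣ, Gen F (c : L) ∧ τ c * c = 1 ∧
      z = g * mu e c * g⁻¹ := by
  have hV : Nontrivial V := Module.nontrivial_of_finrank_pos (R := F) (by omega)
  obtain ⟨z₀, hz₀, hz₀'⟩ := hne
  obtain ⟨e, t, ht, rfl⟩ := exists_mu hL hz₀'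
  obtain ⟨τ, D⟩ := exists_dt h e t ht hz₀
  refine ⟨e, t, τ, D, ?_⟩
  rintro z ⟨hz, hz'⟩
  obtain ⟨e', t', ht', rfl⟩ := exists_mu hL hz'
  obtain ⟨τ', D'⟩ := exists_dt h e' t' ht' hz
  obtain ⟨g, hg, hgc⟩ := exists_conj h h2 D D'
  obtain rfl : τ = τ' := tau_eq D.inv (tau_ne h2 D) D'.inv (tau_ne h2 D')
  refine ⟨g⁻¹, Φ.Iso.inv_mem hg, t', ht', D'.tt, ?_⟩
  rw [← hgc]
  group

/-- **the number of irreducible isometries** (or of those conjugate to an element of a Galois-stable subset of the torus) -/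
theorem card_conj_le (h : Gf Φ ε) (h2 : 2 ≤ finrank F V) {L : Type} [Field L] [Finite L] [Algebra F L]
    (hL : finrank F L = finrank F V) {e : V ≃ₗ[F] L} {t : Lˣ} {τ : L →+* L} (D : Dt Φ e t τ) (S : Set Lˣ)
    (hS : ∀ c ∈ S, Gen F (c : L) ∧ τ c * c = 1) (hSg : ∀ c ∈ S, ∀ σ : L ≃ₐ[F] L, gU σ c ∈ S) :
    Nat.card {z : V ≃ₗ[F] V // ∃ g ∈ Φ.Iso, ∃ c ∈ S, z = g * mu e c * g⁻¹} * (finrank F V * Nat.card {c : Lˣ // τ c * c = 1}) ≤
      Nat.card Φ.Iso * Nat.card S := by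
  classical
  have hfV : Finite V := Module.finite_of_finite F
  have hfin : Finite (V ≃ₗ[F] V) := Finite.of_injective (fun g : V ≃ₗ[F] V => (g : V → V)) DFunLike.coe_injective
  have hfd : FiniteDimensional F L := Module.Finite.of_finite
  have hgal : IsGalois F L := inferInstance
  have hcg : Nat.card (L ≃ₐ[F] L) = finrank F V := by
    rw [IsGalois.card_aut_eq_finrank, hL]
  rw [← hcg, ← Nat.card_prod, ← Nat.card_prod, ← Nat.card_prod]
  -- the choices
  have h3 : ∀ z : {z : V ≃ₗ[F] V // ∃ g ∈ Φ.Iso, ∃ c ∈ S, z = g * mu e c * g⁻¹}, ∃ (g : V ≃ₗ[F] V) (c : Lˣ), g ∈ Φ.Iso ∧ c ∈ S ∧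
      z.1 = g * mu e c * g⁻¹ := fun z => by
    obtain ⟨g, hg, c, hc, h⟩ := z.2
    exact ⟨g, c, hg, hc, h⟩
  choose g c hg hc hz using h3
  have h4 : ∀ (z : {z : V ≃ₗ[F] V // ∃ g ∈ Φ.Iso, ∃ c ∈ S, z = g * mu e c * g⁻¹}) (σ : L ≃ₐ[F] L), ∃ k ∈ Φ.Iso,
      k * mu e (c z) * k⁻¹ = mu e (gU σ (c z)) := fun z σ =>
    exists_gal_conj h h2 (dt_of h h2 D (hS _ (hc z)).1 (hS _ (hc z)).2) σ
  choose k hk hkc using h4
  refine Nat.card_le_card_of_injective (fun p : {z : V ≃ₗ[F] V // ∃ g ∈ Φ.Iso, ∃ c ∈ S, z = g * mu e c * g⁻¹} ×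
      ((L ≃ₐ[F] L) × {c : Lˣ // τ c * c = 1}) =>
    ((⟨g p.1 * (k p.1 p.2.1)⁻¹ * mu e p.2.2.1, Φ.Iso.mul_mem (Φ.Iso.mul_mem (hg _) (Φ.Iso.inv_mem (hk _ _)))
      (mem_iso h h2 D p.2.2.2)⟩, ⟨gU p.2.1 (c p.1), hSg _ (hc _) _⟩) : Φ.Iso × S)) ?_
  rintro ⟨z, σ, d⟩ ⟨z', σ', d'⟩ hE
  have hE1 : g z * (k z σ)⁻¹ * mu e d.1 = g z' * (k z' σ')⁻¹ * mu e d'.1 := congrArg (fun p : Φ.Iso × S => (p.1 : V ≃ₗ[F] V)) hE
  have hE2 : gU σ (c z) = gU σ' (c z') := congrArg (fun p : Φ.Iso × S => (p.2 : Lˣ)) hE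
  have hcomm : ∀ a b : Lˣ, mu e a * mu e b = mu e b * mu e a := fun a b => LinearEquiv.ext fun v => mu_mul_comm e a b v
  have key : ∀ (z) (σ : L ≃ₐ[F] L) (d : Lˣ), (g z * (k z σ)⁻¹ * mu e d) * mu e (gU σ (c z)) * (g z * (k z σ)⁻¹ * mu e d)⁻¹ = z.1 := by
    intro z σ d
    rw [mul_assoc (g z * (k z σ)⁻¹), hcomm, ← hkc, hz z]
    group
  obtain rfl : z = z' := by
    apply Subtype.ext
    rw [← key z σ d, ← key z' σ' d', hE1, hE2]
  obtain rfl : σ = σ' := by
    have h5 : ∀ y : L, σ y = σ' y := (hS _ (hc z)).1.mem (fun y => σ y = σ' y)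
      (fun a => by rw [AlgEquiv.commutes, AlgEquiv.commutes]) (congrArg Units.val hE2)
      (fun x y hx hy => by rw [map_add, map_add, hx, hy]) (fun x y hx hy => by rw [map_mul, map_mul, hx, hy])
    exact AlgEquiv.ext h5
  have h6 : d = d' := Subtype.ext (mu_injective e (mul_left_cancel hE1))
  rw [h6]

/-- **UT2b** -/
theorem card_bm_le (h : Gf Φ ε) (h2 : 2 ≤ finrank F V) : Nat.card Φ.Bm * finrank F V ≤ Nat.card Φ.Iso := by
  classical
  have hfV : Finite V := Module.finite_of_finite F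
  have hfin : Finite (V ≃ₗ[F] V) := Finite.of_injective (fun g : V ≃ₗ[F] V => (g : V → V)) DFunLike.coe_injective
  by_cases hne : ∃ z, z ∈ Φ.Bm
  · obtain ⟨p, hp⟩ := CharP.exists F
    have hpp : Fact p.Prime := ⟨(CharP.char_is_prime_or_zero F p).resolve_right (CharP.char_ne_zero_of_finite F p)⟩
    have hnz : NeZero (finrank F V) := ⟨by omega⟩
    have hLf : finrank F (FiniteField.Extension F p (finrank F V)) = finrank F V := FiniteField.finrank_extension F p (finrank F V)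
    obtain ⟨e, t, τ, D, hall⟩ := exists_torus h h2 hne hLf
    have h3 := card_conj_le h h2 hLf D {c | Gen F (c : FiniteField.Extension F p (finrank F V)) ∧ τ c * c = 1} (fun _ hc => hc)
      (fun c hc σ => ⟨gen_map σ hc.1, by rw [gU_val, tau_gal h2 D, ← map_mul, hc.2, map_one]⟩)
    have h4 : Nat.card Φ.Bm = Nat.card {z : V ≃ₗ[F] V // ∃ g ∈ Φ.Iso, ∃ c ∈ {c : (FiniteField.Extension F p (finrank F V))ˣ |
        Gen F (c : FiniteField.Extension F p (finrank F V)) ∧ τ c * c = 1}, z = g * mu e c * g⁻¹} := by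
      refine Nat.card_congr (Equiv.subtypeEquivRight fun z => ⟨fun hz => ?_, ?_⟩)
      · obtain ⟨g, hg, c, hc, hcc, h5⟩ := hall z hz
        exact ⟨g, hg, c, ⟨hc, hcc⟩, h5⟩
      · rintro ⟨g, hg, c, hc, rfl⟩
        have hm := mem_iso h h2 D hc.2
        refine ⟨Φ.Iso.mul_mem (Φ.Iso.mul_mem hg hm) (Φ.Iso.inv_mem hg), ?_⟩
        have hirr := irr_mu e hc.1
        refine ⟨fun _ _ => Submodule.mem_top, hirr.ne_bot, fun Y _ hY => ?_⟩
        have h5 := hirr.min (Y.comap (g : V →ₗ[F] V)) le_top (fun v hv => by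
          have h6 := hY _ (Submodule.mem_comap.1 hv)
          have h7 : (g * mu e c * g⁻¹) (g v) = g (mu e c v) := by
            show g (mu e c (g⁻¹ (g v))) = _
            rw [show g⁻¹ (g v) = v from g.symm_apply_apply v]
          change (g * mu e c * g⁻¹) (g v) ∈ Y at h6
          rw [h7] at h6
          exact h6)
        rcases h5 with h5 | h5
        · left
          rw [eq_bot_iff]
          intro y hy
          have h6 : g.symm y ∈ Y.comap (g : V →ₗ[F] V) := by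
            show g (g.symm y) ∈ Y
            rwa [g.apply_symm_apply]
          rw [h5, Submodule.mem_bot, LinearEquiv.map_eq_zero_iff] at h6
          rw [h6]
          exact Submodule.zero_mem _
        · right
          rw [eq_top_iff]
          intro y _
          have h6 : g.symm y ∈ Y.comap (g : V →ₗ[F] V) := by rw [h5]; trivial
          change g (g.symm y) ∈ Y at h6
          rwa [g.apply_symm_apply] at h6
    rw [← h4] at h3
    have hT : 0 < Nat.card {c : (FiniteField.Extension F p (finrank F V))ˣ // τ c * c = 1} := by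
      have : Nonempty {c : (FiniteField.Extension F p (finrank F V))ˣ // τ c * c = 1} := ⟨⟨t, D.tt⟩⟩
      exact Nat.card_pos
    have h5 : Nat.card {c : (FiniteField.Extension F p (finrank F V))ˣ | Gen F (c : FiniteField.Extension F p (finrank F V)) ∧
        τ c * c = 1} ≤ Nat.card {c : (FiniteField.Extension F p (finrank F V))ˣ // τ c * c = 1} :=
      Nat.card_le_card_of_injective (fun c => ⟨c.1, c.2.2⟩) fun a b hab => by
        have h8 := Subtype.mk.inj hab
        exact Subtype.ext h8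
    have h6 := h3.trans (Nat.mul_le_mul_left _ h5)
    rw [← mul_assoc] at h6
    exact Nat.le_of_mul_le_mul_right h6 hT
  · have h3 : Nat.card Φ.Bm = 0 := by
      rw [Nat.card_eq_zero]
      exact Or.inl ⟨fun z => hne ⟨z.1, z.2⟩⟩
    rw [h3, zero_mul]
    exact Nat.zero_le _

end

end Cfsg.Agent.H557.Ux
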